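import Cfsg.Agent.Lib.Prg.Kk

/-!
# The exceptional case with a non-trivial `p'`-core (helper27)
-/

set_option autoImplicit false

namespace Cfsg.Lib.Prg

open Subgroup Cfsg.Lib.BG Cfsg.Lib.KT
open scoped MatrixGroups

variable {G Y : Type*} [Group G] [Finite G] [Group Y]

theorem exists_pow_lift (f : G →* Y) (x : G) :
    ∃ k : ℕ, f (x ^ k) = f x ∧ ∀ q, q.Prime → q ∣ orderOf (x ^ k) → q ∣ orderOf (f x) := by
  induction h : orderOf x using Nat.strong_induction_on generalizing x with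
  | _ m ih =>
  by_cases h1 : ∀ q, q.Prime → q ∣ orderOf x → q ∣ orderOf (f x)
  · exact ⟨1, by rw [pow_one], by rwa [pow_one]⟩
  push Not at h1
  obtain ⟨q, hq, h2, h3⟩ := h1
  have o0 : 0 < orderOf (f x) := Nat.pos_of_dvd_of_pos (orderOf_map_dvd f x) (orderOf_pos x)
  have e : f (x ^ q ^ (orderOf (f x)).totient) = f x := by
    rw [map_pow]
    conv_rhs => rw [← pow_one (f x)]
    exact pow_eq_pow_iff_modEq.2 (Nat.ModEq.pow_totient (hq.coprime_iff_not_dvd.2 h3))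
  have lt : orderOf (x ^ q ^ (orderOf (f x)).totient) < m := by
    rw [orderOf_pow, h]
    refine Nat.div_lt_self (h ▸ orderOf_pos x) (hq.one_lt.trans_le (Nat.le_of_dvd
      (Nat.gcd_pos_of_pos_left _ (h ▸ orderOf_pos x)) (Nat.dvd_gcd (h ▸ h2)
        (dvd_pow_self q (Nat.totient_pos.2 o0).ne'))))
  obtain ⟨k, h4, h5⟩ := ih _ lt _ rfl
  exact ⟨q ^ (orderOf (f x)).totient * k, by rw [pow_mul, h4, e], by rw [pow_mul]; rwa [e] at h5⟩

omit [Finite G] in
theorem ord_conj {x y : G} (h : IsConj x y) : orderOf x = orderOf y := by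
  obtain ⟨c, rfl⟩ := isConj_iff.1 h
  exact ((MulAut.conj c).orderOf_eq x).symm

theorem pow_of_primes {r m k : ℕ} (hr : r.Prime) (h0 : m ≠ 0) (h : ∀ q, q.Prime → q ∣ m → q ∣ r ^ k) :
    ∃ j, m = r ^ j :=
  ⟨_, Nat.eq_prime_pow_of_unique_prime_dvd h0 fun hq hd =>
    (Nat.prime_dvd_prime_iff_eq hq hr).1 (hq.dvd_of_dvd_pow (h _ hq hd))⟩

theorem card_cent_le {φ : G →* Y} (hφ : Function.Surjective φ) {x : G} (h : ∀ y, φ y = φ x → IsConj x y) :
    Nat.card 𝐂[x] ≤ Nat.card 𝐂[φ x] := by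
  have := Finite.of_surjective φ hφ
  have h1 := (𝐂[φ x].comap φ).card_mul_index
  have h2 := φ.ker.card_mul_index
  have h3 := 𝐂[φ x].card_mul_index
  rw [index_comap_of_surjective _ hφ] at h1
  rw [index_ker, MonoidHom.range_eq_top.2 hφ, card_top, ← h3, ← h1, ← mul_assoc] at h2
  have h4 := Nat.eq_of_mul_eq_mul_right (Nat.pos_of_ne_zero index_ne_zero_of_finite) h2
  choose w hw using fun m : φ.ker => isConj_iff.1 (h (x * m) (by rw [map_mul, MonoidHom.mem_ker.1 m.2, mul_one]))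
  have key : ∀ (m : φ.ker) (c : 𝐂[x]), w m * c * x * (w m * c)⁻¹ = x * m := fun m c => by
    rw [← hw, mul_assoc (w m), mem_centralizer_singleton_iff.1 c.2]; group
  refine Nat.le_of_mul_le_mul_left ?_ (Nat.card_pos (α := φ.ker))
  rw [h4, ← Nat.card_prod]
  refine Nat.card_le_card_of_injective (fun a => ⟨w a.1 * a.2, mem_centralizer_singleton_iff.2 ?_⟩) ?_
  · have := congrArg φ (key a.1 a.2)
    rw [map_mul, map_mul, map_inv, mul_inv_eq_iff_eq_mul, map_mul φ x, MonoidHom.mem_ker.1 a.1.2, mul_one] at this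
    exact this
  · rintro ⟨m, c⟩ ⟨m', c'⟩ e
    replace e : w m * c = w m' * c' := congrArg Subtype.val e
    obtain rfl : m = m' := Subtype.ext (mul_left_cancel (a := x) (by rw [← key m c, e, key]))
    rw [Subtype.ext (mul_left_cancel e)]

theorem index_cent (n : G) : 𝐂[n].index = {y | IsConj n y}.ncard := by
  let _ : MulAction G G := MulAction.compHom G (MulAut.conj (G := G))
  have e : MulAction.stabilizer G n = 𝐂[n] := by
    ext g
    rw [mem_centralizer_singleton_iff, ← mul_inv_eq_iff_eq_mul]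
    rfl
  rw [← e, MulAction.index_stabilizer]
  congr 1
  ext u
  exact ⟨fun ⟨g, hg⟩ => isConj_iff.2 ⟨g, hg⟩, fun h => isConj_iff.1 h⟩

theorem exc_false {N : Subgroup G} [hn : N.Normal] (h0 : N ≠ ⊥) {φ : G →* SL(2, ZMod 5)}
    (hφ : Function.Surjective φ) (hN : N ≤ φ.ker) (h11 : ¬ 11 ∣ Nat.card N) (hM : ∀ m ∈ φ.ker, m ^ 11 ∈ N)
    (U1 : ∀ x ∈ N, ∀ y ∈ N, x ≠ 1 → y ≠ 1 → IsConj x y)
    (U2 : ∀ x y, φ x ≠ 1 → φ y = φ x → IsConj x y) : False := by
  obtain ⟨r, hr, hd⟩ := Nat.exists_prime_and_dvd ((one_lt_card_iff_ne_bot N).2 h0).ne'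
  have := Fact.mk hr
  obtain ⟨⟨n, hnN⟩, ho⟩ := exists_prime_orderOf_dvd_card' r hd
  rw [orderOf_mk] at ho
  have n1 : n ≠ 1 := fun e => hr.one_lt.ne' (by rw [← ho, e, orderOf_one])
  have hp : ∀ y ∈ N, y ^ r = 1 := fun y hy => by
    by_cases h : y = 1
    · rw [h, one_pow]
    · rw [← ho, ord_conj (U1 n hnN y hy n1 h), pow_orderOf_eq_one]
  have hP : IsPGroup r N := fun y => ⟨1, Subtype.ext (by simpa using hp y y.2)⟩
  by_cases h235 : r = 2 ∨ r = 3 ∨ r = 5
  · obtain ⟨y, k, h1, h2⟩ := sl25_small h235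
    obtain ⟨x, rfl⟩ := hφ y
    obtain ⟨j, h3, h4⟩ := exists_pow_lift φ x
    rw [← h3] at h1 h2
    generalize x ^ j = x at *
    obtain ⟨i, hi⟩ := pow_of_primes hr (orderOf_pos x).ne' (h1 ▸ h3 ▸ h4)
    obtain ⟨c, hc, h5, h6⟩ := PGroup.exists_mem_centralizer_orderOf_eq hP
      (P := zpowers x) (IsPGroup.of_card (by rw [Nat.card_zpowers, hi])) le_normalizer_of_normal h0
    have h7 := card_cent_le hφ (x := x) fun y hy => U2 x y (fun e => by
      rw [e, orderOf_one] at h1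
      exact (Nat.one_lt_pow (by omega) hr.one_lt).ne h1) hy
    have h8 := (φ.comp 𝐂[x].subtype).ker.card_mul_index
    have h9 : r ≤ Nat.card (φ.comp 𝐂[x].subtype).ker := by
      let c' : 𝐂[x] := ⟨c, mem_centralizer_singleton_iff.2 (h5 x (mem_zpowers x)).symm⟩
      rw [← h6, ← orderOf_mk c c'.2]
      exact Nat.le_of_dvd Nat.card_pos (orderOf_dvd_natCard _ (hN hc))
    have h10 : orderOf (φ x) ≤ (φ.comp 𝐂[x].subtype).ker.index := by
      rw [index_ker]
      exact Nat.le_of_dvd Nat.card_pos (orderOf_dvd_natCard _ ⟨⟨x, mem_centralizer_singleton_iff.2 rfl⟩, rfl⟩)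
    have := Nat.mul_le_mul h9 h10
    omega
  have h120 : ¬ r ∣ 120 := fun h => h235 (by
    rw [show 120 = 2 ^ 3 * 3 * 5 by norm_num, hr.dvd_mul, hr.dvd_mul, Nat.prime_dvd_prime_iff_eq hr Nat.prime_three,
      Nat.prime_dvd_prime_iff_eq hr Nat.prime_five, or_assoc] at h
    exact h.imp_left fun h => (Nat.prime_dvd_prime_iff_eq hr Nat.prime_two).1 (hr.dvd_of_dvd_pow h))
  have m1 : (-1 : SL(2, ZMod 5)) ≠ 1 := by decide
  obtain ⟨t, ht, t2⟩ : ∃ t, φ t = -1 ∧ t * t = 1 := by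
    obtain ⟨x, hx⟩ := hφ (-1)
    obtain ⟨j, h3, h4⟩ := exists_pow_lift φ x
    rw [hx] at h3 h4
    generalize x ^ j = x at *
    rw [show orderOf (-1 : SL(2, ZMod 5)) = 2 ^ 1 from orderOf_eq_prime (p := 2) (by simp) m1] at h4
    obtain ⟨i, hi⟩ := pow_of_primes Nat.prime_two (orderOf_pos x).ne' h4
    refine ⟨x, h3, orderOf_eq_one_iff.1 (Nat.eq_one_of_dvd_coprimes (a := 2 ^ i) (b := 11 * r) ?_ ?_ ?_)⟩
    · exact Nat.Coprime.pow_left _ (Nat.Coprime.mul_right (by norm_num)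
        ((Nat.coprime_primes Nat.prime_two hr).2 (by omega)))
    · rw [← hi, ← sq]
      exact orderOf_pow_dvd 2
    · exact orderOf_dvd_of_pow_eq_one (by
        rw [pow_mul]; exact hp _ (hM _ (by rw [MonoidHom.mem_ker, map_mul, h3]; simp)))
  have inv : ∀ y ∈ N, t * y * t⁻¹ = y⁻¹ := fun y hy => by
    obtain ⟨c, hc⟩ := isConj_iff.1 (U2 t (t * y) (ht ▸ m1) (by rw [map_mul, MonoidHom.mem_ker.1 (hN hy), mul_one]))
    have : t * y * (t * y) = 1 := by
      rw [← hc]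
      calc _ = c * (t * t) * c⁻¹ := by group
        _ = 1 := by rw [t2]; group
    rw [inv_eq_of_mul_eq_one_right t2, eq_inv_iff_mul_eq_one, mul_assoc, this]
  have hC : 𝐂[n] = φ.ker := by
    refine le_antisymm (fun g hg => by_contra fun h => ?_) fun m hm => ?_
    · obtain ⟨j, h3, h4⟩ := exists_pow_lift φ g
      have h5 : Commute (g ^ j) n := mem_centralizer_singleton_iff.1 (pow_mem hg j)
      have h6 := ord_conj (U2 (g ^ j) (g ^ j * n) (h3 ▸ h) (by
        rw [map_mul, MonoidHom.mem_ker.1 (hN hnN), mul_one]))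
      have h7 := pow_orderOf_eq_one (g ^ j * n)
      rw [← h6, h5.mul_pow, pow_orderOf_eq_one, one_mul] at h7
      exact h120 ((h4 r hr (ho ▸ orderOf_dvd_of_pow_eq_one h7)).trans
        (Frobenius.card_sl_two_five ▸ orderOf_dvd_natCard _))
    · obtain ⟨c, hc⟩ := isConj_iff.1 (U2 t (m * t) (ht ▸ m1) (by rw [map_mul, MonoidHom.mem_ker.1 hm, one_mul]))
      have h1 := inv _ (hn.conj_mem _ (N.inv_mem hnN) c⁻¹)
      have h2 := inv _ (N.inv_mem hnN)
      rw [mem_centralizer_singleton_iff, ← mul_inv_eq_iff_eq_mul, ← mul_inv_eq_iff_eq_mul.2 hc]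
      rw [inv_inv] at h2
      have h3 : t⁻¹ * n * t = n⁻¹ := by
        conv_lhs => rw [← h2]
        group
      calc _ = c * (t * (c⁻¹ * (t⁻¹ * n * t) * c⁻¹⁻¹) * t⁻¹) * c⁻¹ := by group
        _ = _ := by
          rw [h3, h1]; group
  have h1 := index_cent n
  rw [hC, index_ker, MonoidHom.range_eq_top.2 hφ, card_top, Frobenius.card_sl_two_five,
    show {y | IsConj n y} = (N : Set G) \ {1} from Set.ext fun y => ⟨fun h => by
      obtain ⟨c, rfl⟩ := isConj_iff.1 h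
      exact ⟨hn.conj_mem _ hnN c, fun e => n1 (conj_eq_one_iff.1 e)⟩, fun h => U1 n hnN y h.1 n1 h.2⟩,
    Set.ncard_sdiff_singleton_of_mem (by exact N.one_mem)] at h1
  exact h11 ⟨11, by change (N : Set G).ncard = _; omega⟩

end Cfsg.Lib.Prg
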