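import Cfsg.Agent.Lib.KT.Cnt
import Cfsg.Agent.Lib.Frobenius.Binary

/-!
# Lower bounds for class numbers (helper27)
-/

set_option autoImplicit false

namespace Cfsg.Lib.Prg

open Subgroup Cfsg.Lib.BG Cfsg.Lib.KT Finset
open scoped MatrixGroups

theorem kk_le_of_surj {Y Z : Type*} [Group Y] [Finite Y] [Group Z] {f : Y →* Z}
    (hf : Function.Surjective f) : kk Z ≤ kk Y :=
  Nat.card_le_card_of_surjective _ (ConjClasses.map_surjective hf)

theorem kk_congr {Y Z : Type*} [Group Y] [Finite Y] [Group Z] (e : Y ≃* Z) : kk Y = kk Z :=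
  have := Finite.of_equiv _ e.toEquiv
  le_antisymm (kk_le_of_surj (f := e.symm.toMonoidHom) e.symm.surjective)
    (kk_le_of_surj (f := e.toMonoidHom) e.surjective)

theorem kk_comm {Y : Type*} [Group Y] (h : ∀ a b : Y, a * b = b * a) : kk Y = Nat.card Y :=
  (Nat.card_congr (Equiv.ofBijective _ ⟨fun a b e => by
    obtain ⟨c, rfl⟩ := isConj_iff.1 (ConjClasses.mk_eq_mk_iff_isConj.1 e)
    rw [h c, mul_inv_cancel_right], ConjClasses.mk_surjective⟩)).symm

/-- Central extensions. -/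
theorem kk_pairs {H Y : Type*} [Group H] [Finite H] [Group Y] {π : H →* Y} (hπ : Function.Surjective π)
    (hZ : π.ker ≤ center H) :
    Nat.card π.ker * Nat.card π.ker *
      Nat.card {a : Y × Y // ∃ k : Fin 5, a.2 = a.1 ^ (k : ℕ) ∨ a.1 = a.2 ^ (k : ℕ)} ≤ kk H * Nat.card H := by
  rw [← card_comm_eq_card_conjClasses_mul_card, ← Nat.card_prod, ← Nat.card_prod]
  have hs := Function.surjInv_eq hπ
  have key : ∀ (x y : H) (k : ℕ), π y = π x ^ k → Commute x y := fun x y k h => by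
    have h1 : y * (x ^ k)⁻¹ ∈ π.ker := by simp [MonoidHom.mem_ker, h]
    have h2 : Commute x (y * (x ^ k)⁻¹) := mem_center_iff.1 (hZ h1) x
    simpa using h2.mul_right (Commute.pow_right (Commute.refl x) k)
  have hk : ∀ (z : π.ker) (y : Y), π (z * Function.surjInv hπ y) = y := fun z y => by
    rw [map_mul, MonoidHom.mem_ker.1 z.2, one_mul, hs]
  refine Nat.card_le_card_of_injective (fun a => ⟨(a.1.1 * Function.surjInv hπ a.2.1.1,
    a.1.2 * Function.surjInv hπ a.2.1.2), ?_⟩) ?_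
  · obtain ⟨k, h | h⟩ := a.2.2
    · exact key _ _ k (by rw [hk, hk, h])
    · exact (key _ _ k (by rw [hk, hk, h])).symm
  · rintro ⟨⟨z, w⟩, ⟨a, b⟩, h⟩ ⟨⟨z', w'⟩, ⟨a', b'⟩, h'⟩ e
    simp only [Subtype.mk.injEq, Prod.mk.injEq] at e
    obtain rfl : a = a' := by rw [← hk z a, e.1, hk]
    obtain rfl : b = b' := by rw [← hk w b, e.2, hk]
    obtain rfl : z = z' := Subtype.ext (mul_right_cancel e.1)
    obtain rfl : w = w' := Subtype.ext (mul_right_cancel e.2)
    rfl

theorem pairs_congr {Y Z : Type*} [Group Y] [Group Z] (e : Y ≃* Z) :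
    Nat.card {a : Y × Y // ∃ k : Fin 5, a.2 = a.1 ^ (k : ℕ) ∨ a.1 = a.2 ^ (k : ℕ)} =
      Nat.card {a : Z × Z // ∃ k : Fin 5, a.2 = a.1 ^ (k : ℕ) ∨ a.1 = a.2 ^ (k : ℕ)} :=
  Nat.card_congr ((e.toEquiv.prodCongr e.toEquiv).subtypeEquiv fun a => by
    simp [← map_pow])

theorem pairs_A4 : Nat.card {a : alternatingGroup (Fin 4) × alternatingGroup (Fin 4) //
    ∃ k : Fin 5, a.2 = a.1 ^ (k : ℕ) ∨ a.1 = a.2 ^ (k : ℕ)} = 42 := by
  rw [Nat.card_eq_fintype_card]
  decide +kernel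

theorem pairs_S4 : Nat.card {a : Equiv.Perm (Fin 4) × Equiv.Perm (Fin 4) //
    ∃ k : Fin 5, a.2 = a.1 ^ (k : ℕ) ∨ a.1 = a.2 ^ (k : ℕ)} = 96 := by
  rw [Nat.card_eq_fintype_card]
  decide +kernel

theorem pairs_A5 : Nat.card {a : alternatingGroup (Fin 5) × alternatingGroup (Fin 5) //
    ∃ k : Fin 5, a.2 = a.1 ^ (k : ℕ) ∨ a.1 = a.2 ^ (k : ℕ)} = 270 := by
  rw [Nat.card_eq_fintype_card]
  decide +kernel

set_option maxRecDepth 100000 in
set_option maxHeartbeats 4000000 in
theorem kk_sl25 : kk SL(2, ZMod 5) = 9 := by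
  have h := card_comm_eq_card_conjClasses_mul_card SL(2, ZMod 5)
  have h1 : Nat.card {p : SL(2, ZMod 5) × SL(2, ZMod 5) // Commute p.1 p.2} = 1080 := by
    change Nat.card {p : SL(2, ZMod 5) × SL(2, ZMod 5) // p.1 * p.2 = p.2 * p.1} = 1080
    rw [Nat.card_eq_fintype_card]
    decide +kernel
  rw [h1, Frobenius.card_sl_two_five] at h
  unfold kk
  omega

/-- An element of order four. -/
def slFour : SL(2, ZMod 5) := ⟨!![0, 1; -1, 0], by decide⟩

/-- An element of order three. -/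
def slThree : SL(2, ZMod 5) := ⟨!![0, 1; -1, -1], by decide⟩

/-- An element of order five. -/
def slFive : SL(2, ZMod 5) := ⟨!![1, 1; 0, 1], by decide⟩

/-- Elements of prime power order with small centralizers in `SL(2, 5)`. -/
theorem sl25_small {r : ℕ} (hr : r = 2 ∨ r = 3 ∨ r = 5) : ∃ (y : SL(2, ZMod 5)) (k : ℕ), orderOf y = r ^ (k + 1) ∧
    Nat.card (centralizer ({y} : Set SL(2, ZMod 5))) < r * orderOf y := by
  have key : ∀ (y : SL(2, ZMod 5)) (c : ℕ), Fintype.card {x : SL(2, ZMod 5) // x * y = y * x} = c →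
      Nat.card (centralizer ({y} : Set SL(2, ZMod 5))) = c := fun y c h => by
    rw [← h, ← Nat.card_eq_fintype_card]
    exact Nat.card_congr (Equiv.subtypeEquivRight fun x => mem_centralizer_singleton_iff)
  rcases hr with rfl | rfl | rfl
  · have : orderOf slFour = 2 ^ (1 + 1) :=
      orderOf_eq_prime_pow (by decide +kernel) (by decide +kernel)
    exact ⟨_, 1, this, by rw [this, key _ 4 (by decide +kernel)]; norm_num⟩
  · have : orderOf slThree = 3 ^ (0 + 1) :=
      orderOf_eq_prime_pow (by decide +kernel) (by decide +kernel)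
    exact ⟨_, 0, this, by rw [this, key _ 6 (by decide +kernel)]; norm_num⟩
  · have := Fact.mk Nat.prime_five
    have : orderOf slFive = 5 ^ (0 + 1) :=
      orderOf_eq_prime_pow (by decide +kernel) (by decide +kernel)
    exact ⟨_, 0, this, by rw [this, key _ 10 (by decide +kernel)]; norm_num⟩

variable {X : Type*} [Group X] [Finite X] {G T : Subgroup X}

theorem sq_le_kk (h : T ≤ G) (hc : IsMulCommutative T) : Nat.card T * Nat.card T ≤ kk G * Nat.card G := by
  classical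
  have := Fintype.ofFinite X
  rw [kk_mul, sum_split h]
  refine le_trans ?_ (Nat.le_add_right _ _)
  rw [card_eq_sum T, sum_mul]
  refine sum_le_sum fun x hx => ?_
  rw [one_mul, ← card_eq_sum]
  exact card_le_of_le fun y hy => ⟨h hy, mem_centralizer_singleton_iff.2 (setLike_mul_comm hy (mem_filter.1 hx).2)⟩

theorem three_le_kk (h : 2 < Nat.card G) : 3 ≤ kk G := by
  classical
  have := Fintype.ofFinite X
  have h1 := kk_mul G
  rw [sum_split (bot_le : ⊥ ≤ G)] at h1
  have h2 : ∑ x with x ∈ (⊥ : Subgroup X), Nat.card ↥(G ⊓ 𝐂[x]) = Nat.card G := by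
    rw [show (univ.filter (· ∈ (⊥ : Subgroup X))) = {1} by ext; simp, sum_singleton]
    congr 2
    exact inf_eq_left.2 fun x _ => mem_centralizer_singleton_iff.2 (by simp)
  have h3 := sum_split (bot_le : ⊥ ≤ G) fun _ => 1
  rw [← card_eq_sum, ← card_eq_sum, card_bot] at h3
  have h4 : (∑ x with x ∈ G ∧ x ∉ (⊥ : Subgroup X), 1) * 2 ≤
      ∑ x with x ∈ G ∧ x ∉ (⊥ : Subgroup X), Nat.card ↥(G ⊓ 𝐂[x]) := by
    rw [sum_mul]
    refine sum_le_sum fun x hx => ?_
    rw [one_mul]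
    exact (one_lt_card_iff_ne_bot _).2 fun e => (mem_filter.1 hx).2.2
      (e.le ⟨(mem_filter.1 hx).2.1, mem_centralizer_singleton_iff.2 rfl⟩)
  by_contra h5
  have := Nat.mul_le_mul_right (Nat.card G) (show kk G ≤ 2 by omega)
  omega

end Cfsg.Lib.Prg
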