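import Cfsg.Agent.Lib.KT.Main
import Cfsg.Agent.Lib.Prg.Kk

/-!
# Lower bound for the class number of a transitive coprime linear group (helper27; parts adapted from Lib.KT)
-/

set_option autoImplicit false

namespace Cfsg.Lib.Prg

open Subgroup Cfsg.Lib.BG Cfsg.Lib.KT Cfsg.Lib.Perm Cfsg.Lib.PSL2 Matrix
open scoped MatrixGroups

variable {X : Type*} [Group X] [Finite X]

/-- The alternatives for the central quotient. -/
def Exc (C : Type*) [Group C] (z : ℕ) : Prop :=
  (Nat.card C = z * 12 ∧ z * z * 42 ≤ kk C * Nat.card C) ∨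
  (Nat.card C = z * 24 ∧ z * z * 96 ≤ kk C * Nat.card C ∧ 5 ≤ kk C) ∨
  (Nat.card C = z * 60 ∧ z * z * 270 ≤ kk C * Nat.card C ∧ ¬ Group.IsSolvable C)

theorem two' {C : Subgroup X} {F : Type*} [Field F] [Finite F] {p : ℕ} [hp : Fact p.Prime] [CharP F p]
    (φ : C →* Matrix (Fin 2) (Fin 2) F) (hφ : Function.Injective φ) (hc : ¬ p ∣ Nat.card C) :
    (∃ D ≤ C, D.relIndex C ∣ 2 ∧ IsMulCommutative D) ∨ ∃ z, 0 < z ∧ Exc C z := by
  let R : C →* GL (Fin 2) F := φ.toHomUnits
  have hR : Function.Injective R := fun a b h => hφ (congrArg Units.val h)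
  let π : C →* PGL(2, F) := ProjGenLinGroup.mk.comp R
  have hk : ∀ c, c ∈ π.ker ↔ R c ∈ center (GL (Fin 2) F) := fun c => ProjGenLinGroup.mk_eq_one
  have hZ : π.ker ≤ center C := fun c hc =>
    mem_center_iff.2 fun a => hR (by rw [map_mul, map_mul, mem_center_iff.1 ((hk c).1 hc)])
  have hq : Nat.card π.ker ≤ Nat.card F - 1 := by
    rw [← Nat.card_units]
    refine (Nat.card_le_card_of_injective (fun c : π.ker => (⟨R c, (hk c).1 c.2⟩ : center (GL (Fin 2) F)))
      fun a b h => Subtype.ext (hR (congrArg Subtype.val h))).trans ?_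
    rw [GeneralLinearGroup.center_eq_range_scalar]
    exact Nat.card_le_card_of_surjective _ (MonoidHom.rangeRestrict_surjective _)
  have rel : ∀ D : Subgroup C, (D.map C.subtype).relIndex C = D.index := fun D => by
    rw [relIndex, subgroupOf, comap_map_eq_self_of_injective C.subtype_injective]
  have key : ∀ {Q : Type} [Group Q] [Finite Q], Nonempty (π.range ≃* Q) → ∃ f : C →* Q, Function.Surjective f ∧
      Nat.card C = Nat.card π.ker * Nat.card Q ∧ Nat.card π.ker * Nat.card π.ker *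
      Nat.card {a : Q × Q // ∃ k : Fin 5, a.2 = a.1 ^ (k : ℕ) ∨ a.1 = a.2 ^ (k : ℕ)} ≤ kk C * Nat.card C := by
    intro Q _ _ ⟨e⟩
    have hs : Function.Surjective (e.toMonoidHom.comp π.rangeRestrict) :=
      e.surjective.comp π.rangeRestrict_surjective
    have hk : (e.toMonoidHom.comp π.rangeRestrict).ker = π.ker := by
      rw [MonoidHom.ker_comp_of_injective _ _ e.injective, MonoidHom.ker_rangeRestrict]
    refine ⟨_, hs, ?_, hk ▸ kk_pairs hs (hk ▸ hZ)⟩
    rw [← π.ker.card_mul_index, index_ker, Nat.card_congr e.toEquiv]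
  rcases dickson_pgl_coprime (AlgebraicClosure F) p π.range ((hp.out.coprime_iff_not_dvd.2 fun h =>
    hc (h.trans (card_range_dvd π))).symm) with ⟨a, b, m, h1, h2⟩ | h | h | h
  · refine .inl ⟨((torus F a b).comap π).map C.subtype, map_subtype_le _, ?_, ?_⟩
    · rw [rel, index_dvd_two_iff]
      by_cases h3 : ∀ c, π c ∈ torus F a b
      · exact ⟨1, fun c => .inr (h3 c)⟩
      obtain ⟨s, hs⟩ := not_forall.1 h3
      refine ⟨s, fun c => or_iff_not_imp_right.2 fun hc => ?_⟩
      rw [mem_comap, map_mul, mem_torus, map_mul]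
      exact mul_mem_fix2_of_swap (swap_of_mem_pairStab (h2 ⟨c, rfl⟩) hc) (swap_of_mem_pairStab (h2 ⟨s, rfl⟩) hs)
    · have := isCyclic_torus (F := F) h1.ne
      have := (π.subgroupComap (torus F a b)).isMulCommutative_of_isCyclic_of_ker_le_center fun c hc =>
        mem_center_iff.2 fun d => Subtype.ext (mem_center_iff.1 (hZ (congrArg Subtype.val hc)) d)
      infer_instance
  · obtain ⟨f, -, h1, h2⟩ := key h
    rw [alternatingGroup.card_of_card_eq_four (by simp)] at h1
    exact .inr ⟨_, Nat.card_pos, .inl ⟨h1, pairs_A4 ▸ h2⟩⟩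
  · obtain ⟨f, hf, h1, h2⟩ := key h
    rw [show Nat.card (Equiv.Perm (Fin 4)) = 24 by rw [Nat.card_perm]; simp [Nat.factorial]] at h1
    exact .inr ⟨_, Nat.card_pos, .inr (.inl ⟨h1, pairs_S4 ▸ h2, kk_S4 ▸ kk_le_of_surj hf⟩)⟩
  · obtain ⟨f, hf, h1, h2⟩ := key h
    rw [show Nat.card (alternatingGroup (Fin 5)) = 60 by
      rw [nat_card_alternatingGroup]; simp [Nat.factorial]] at h1
    refine .inr ⟨_, Nat.card_pos, .inr (.inr ⟨h1, pairs_A5 ▸ h2, fun hs => ?_⟩)⟩
    have := Group.isSolvable_of_surjective hf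
    have h5 := IsSimpleGroup.comm_iff_isSolvable.2 this
    revert h5
    decide +kernel

variable {p n : ℕ} [hp : Fact p.Prime] {V G : Subgroup X}

theorem good_T (L : St p n V G) (hG : Good V G) :
    ∃ T ≤ G, IsMulCommutative T ∧ T.relIndex G ≤ n ∧ Nat.card T + 1 ≤ p ^ n := by
  obtain ⟨A, hA, hn, hc, hi⟩ := hG
  obtain ⟨T, hT⟩ : ∃ T, T = G ⊓ 𝐂(A) := ⟨_, rfl⟩
  have hTG : T ≤ G := hT ▸ inf_le_left
  have hAT : A ≤ T := hT ▸ le_inf hA (le_centralizer_iff_isMulCommutative.2 hc)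
  have hTc : IsMulCommutative T := hT ▸ L.comm_cent hA hc hi
  have hTn : G ≤ 𝐍(T) := hT ▸ Coprime.le_normalizer_inf le_normalizer (Coprime.le_normalizer_centralizer hn)
  obtain ⟨F, _, _, f, ψ, h⟩ := L.coord hTG hTc (Irr.mono hi hAT)
  have := finite_aut F
  have hF : Nat.card F = p ^ n := h.card_eq.trans L.card
  have inj : Function.Injective h.psiHom := (MonoidHom.ker_eq_bot_iff _).1 (by
    rw [h.ker_psiHom, eq_bot_iff]
    exact fun t ht => Subtype.ext (L.eq_one (hTG t.2) ht))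
  have hTq : Nat.card T + 1 ≤ p ^ n := by
    have := Nat.card_le_card_of_injective _ inj
    rw [Nat.card_units, hF] at this
    have := pow_pos hp.out.pos n
    omega
  choose c σ hc0 hσ1 hσ2 using fun g : G => h.exists_semilinear (L.norm g.2) (hTn g.2)
  let θ : G →* (F ≃+* F) := MonoidHom.mk'
    (fun g => RingEquiv.ofBijective (σ g) (Finite.injective_iff_bijective.1 (σ g).injective)) fun a b => by
      have : σ (a * b) = (σ a).comp (σ b) := RingHom.eq_of_eqOn_set_dense h.gen (by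
        rintro _ ⟨u, hu, rfl⟩
        rw [← hσ2 _ u hu, RingHom.comp_apply, ← hσ2 _ u hu,
          ← hσ2 _ _ ((mem_normalizer_iff.1 (hTn b.2) u).1 hu)]
        congr 1
        rw [Subgroup.coe_mul]; group)
      ext x
      exact RingHom.congr_fun this x
  have hθ : ∀ g x, θ g x = σ g x := fun _ _ => rfl
  have fix : ∀ (g : G) (u : T), θ g (ψ u) = ψ u ↔ (u : X) ∈ 𝐂[(g : X)] := fun g u => by
    have hm := (mem_normalizer_iff.1 (hTn g.2) u).1 u.2
    rw [hθ, ← hσ2 g u u.2, mem_centralizer_singleton_iff, eq_comm (a := (u : X) * g), ← mul_inv_eq_iff_eq_mul]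
    exact ⟨fun e => congrArg Subtype.val (inj (a₁ := ⟨_, hm⟩) (a₂ := u) (Units.ext e)), fun e => by rw [e]⟩
  have ker : θ.ker = T.subgroupOf G := by
    ext g
    refine ⟨fun hg => hT.ge ⟨g.2, fun a ha => mem_centralizer_singleton_iff.1 ((fix g ⟨a, hAT ha⟩).1 (by
      rw [MonoidHom.mem_ker.1 hg]; rfl))⟩, fun hg => ?_⟩
    have : σ g = RingHom.id F := RingHom.eq_of_eqOn_set_dense h.gen (by
      rintro _ ⟨u, hu, rfl⟩
      exact (fix g ⟨u, hu⟩).2 (mem_centralizer_singleton_iff.2 (setLike_mul_comm hu hg)))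
    ext x
    exact RingHom.congr_fun this x
  have hr : Nat.card θ.range = T.relIndex G := by rw [← index_ker, ker, relIndex]
  have hmn : T.relIndex G ≤ n := by
    rw [← hr, ← card_ringAut hF]
    exact card_le_card_group _
  exact ⟨T, hTG, hTc, hmn, hTq⟩

theorem dim_two' (L : St p 2 V G) : Good V G ∨ ∃ z, 0 < z ∧ Exc G z := by
  obtain ⟨⟨v, hv⟩, h1⟩ := ne_bot_iff_exists_ne_one.1 L.ne_bot
  replace h1 : v ≠ 1 := fun e => h1 (Subtype.ext e)
  obtain ⟨c⟩ := PLocal.nonempty_elemAbCoord L.elem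
  have hn : c.n = 2 := by
    have : Nat.card V = Nat.card (Fin c.n → ZMod p) :=
      (Nat.card_congr (Equiv.ofBijective (fun u => (⟨c.e u, c.mem u⟩ : V))
        ⟨fun u w h => c.inj (congrArg Subtype.val h), fun x => by
          obtain ⟨u, hu⟩ := (c.mem_iff x).mp x.2
          exact ⟨u, Subtype.ext hu⟩⟩)).symm
    rw [Nat.card_fun, Nat.card_zmod, Nat.card_fin, L.card] at this
    exact (Nat.pow_right_injective hp.out.two_le this).symm
  have h2 := c.rho_eq_one_iff
  obtain ⟨n, e, ρ, _, _, _, _⟩ := c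
  simp only at hn h2
  subst hn
  have hG := L.card_eq hv h1
  have p2 := hp.out.two_le
  obtain ⟨q, rfl⟩ : ∃ q, p = q + 1 := ⟨p - 1, by omega⟩
  have e2 : (q + 1) ^ 2 - 1 = q * (q + 2) := Nat.sub_eq_of_eq_add (by ring)
  have ha := Nat.card_pos (α := ↥(G ⊓ 𝐂[v]))
  rw [e2] at hG
  rcases two' (p := q + 1) (ρ.comp (inclusion L.norm)) ((injective_iff_map_eq_one _).2 fun g hg =>
    Subtype.ext (L.eq_one g.2 ((h2 _).1 hg))) L.cop with ⟨D, hD, h3, h4⟩ | h
  · have hn : G ≤ 𝐍(D) := by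
      rw [← normal_subgroupOf_iff_le_normalizer hD]
      rcases (Nat.dvd_prime Nat.prime_two).1 h3 with h | h
      · rw [index_eq_one.1 h]; infer_instance
      · exact normal_of_index_eq_two h
    refine .inl ⟨D, hD, hn, h4, fun W hW hn' => by_contra fun h => ?_⟩
    obtain ⟨i, i0, i2, e⟩ := L.card_sub hW (not_or.1 h).1 (not_or.1 h).2
    obtain rfl : i = 1 := by omega
    have h5 := L.sreg_dvd hD hn h4 hW hn'
    rw [e, pow_one, Nat.add_sub_cancel] at h5
    have h6 := Nat.le_of_dvd (by omega) h5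
    have h7 := Nat.le_of_dvd two_pos h3
    have h8 := PGroup.card_mul_relIndex hD
    nlinarith [Nat.mul_le_mul h6 h7]
  · exact .inr h

theorem good_of (L : St p n V G) (h5 : p ≠ 2) (h3 : p ≠ 3) (n2 : n ≠ 2) : Good V G := by
  have h0 := L.pos
  by_cases n1 : n = 1
  · subst n1
    refine ⟨⊥, bot_le, le_normalizer_of_normal, inferInstance, fun W hW _ => by_contra fun h => ?_⟩
    obtain ⟨i, _, _, -⟩ := L.card_sub hW (not_or.1 h).1 (not_or.1 h).2
    omega
  by_cases n3 : n = 3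
  · subst n3
    obtain ⟨r, hr, ho, h⟩ := num_three hp.out h5
    have := Fact.mk hr
    exact h.elim (fun h => L.good_of_big ho h5 h (by omega)) fun h => L.good_of_sq ho (by omega) (h.trans L.dvd)
  by_cases c : p = 5 ∧ n = 6
  · obtain ⟨rfl, rfl⟩ := c; exact L.good_six (.inr ⟨rfl, rfl⟩)
  obtain ⟨r, hr, ho, h⟩ := num_big (n := n) hp.out h5 (by omega) (by omega) c
  have := Fact.mk hr
  exact h.elim (fun h => L.good_of_big ho h5 (by omega) h) fun h => L.good_of_sq ho (by omega) (h.trans L.dvd)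

theorem num_good {p n : ℕ} (h5 : 5 ≤ p) (h2 : 2 ≤ n) : (p - 1) * (n * n) + 1 < p ^ n := by
  obtain ⟨q, rfl⟩ : ∃ q, p = q + 1 := ⟨p - 1, by omega⟩
  rw [Nat.add_sub_cancel]
  induction n, h2 using Nat.le_induction with
  | base => nlinarith
  | succ n hn ih =>
    rw [pow_succ]
    have : (n + 1) * (n + 1) ≤ 4 * (n * n) := by nlinarith
    nlinarith [Nat.mul_le_mul_left q this, Nat.mul_le_mul_right (q * (n * n)) (show 4 ≤ q by omega)]

theorem lin_main (L : St p n V G) : p ≤ kk G ∨ (n = 1 ∧ kk G = p - 1 ∧ Nat.card G = p - 1) ∨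
    (p = 11 ∧ n = 2 ∧ Nat.card G = 120 ∧ ¬ Group.IsSolvable G) := by
  have h0 := L.pos
  have p2 := hp.out.two_le
  have hd := Nat.le_of_dvd Nat.card_pos L.dvd
  by_cases n1 : n = 1
  · subst n1
    have hG : Good V G := by
      refine ⟨⊥, bot_le, le_normalizer_of_normal, inferInstance, fun W hW _ => by_contra fun h => ?_⟩
      obtain ⟨i, _, _, -⟩ := L.card_sub hW (not_or.1 h).1 (not_or.1 h).2
      omega
    obtain ⟨T, h1, h2, h3, h4⟩ := good_T L hG
    have h5 : T.relIndex G ≠ 0 := index_ne_zero_of_finite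
    obtain rfl : T = G := le_antisymm h1 (relIndex_eq_one.1 (by omega))
    rw [pow_one] at hd h4
    exact .inr (.inl ⟨rfl, by rw [kk_comm fun a b => mul_comm' a b]; omega, by omega⟩)
  have h4 : p ^ 2 ≤ p ^ n := Nat.pow_le_pow_right (by omega) (by omega)
  by_cases p3 : p ≤ 3
  · exact .inl (p3.trans (three_le_kk (by nlinarith [Nat.sub_add_cancel (Nat.one_le_pow n p (by omega))])))
  have p5 : 5 ≤ p := by
    by_contra h
    obtain rfl : p = 4 := by omega
    exact absurd hp.out (by norm_num)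
  have good : Good V G → p ≤ kk G := fun hG => by
    obtain ⟨T, h1, h2, h3, -⟩ := good_T L hG
    have h5 := sq_le_kk h1 h2
    have h6 := PGroup.card_mul_relIndex h1
    have h7 := num_good p5 (show 2 ≤ n by omega)
    have h8 := Nat.card_pos (α := T)
    by_contra h9
    rw [← h6] at h5 hd
    have h10 : Nat.card T ≤ kk G * T.relIndex G := Nat.le_of_mul_le_mul_left (by nlinarith) h8
    have h11 : Nat.card T * T.relIndex G ≤ (p - 1) * (n * n) :=
      calc _ ≤ kk G * T.relIndex G * T.relIndex G := Nat.mul_le_mul_right _ h10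
        _ ≤ (p - 1) * n * n := Nat.mul_le_mul (Nat.mul_le_mul (by omega) h3) h3
        _ = _ := by ring
    omega
  by_cases n2 : n = 2
  swap
  · exact .inl (good (good_of L (by omega) (by omega) n2))
  subst n2
  rcases dim_two' L with h | ⟨z, hz, h⟩
  · exact .inl (good h)
  by_cases hk : p ≤ kk G
  · exact .inl hk
  obtain ⟨q, rfl⟩ : ∃ q, p = q + 1 := ⟨p - 1, by omega⟩
  have e2 : (q + 1) ^ 2 - 1 = q * (q + 2) := Nat.sub_eq_of_eq_add (by ring)
  have hdv := L.dvd
  have hcop := L.cop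
  rw [e2] at hd hdv
  have hk' : kk G ≤ q := by omega
  rcases h with ⟨h1, h2⟩ | ⟨h1, h2, h3⟩ | ⟨h1, h2, h3⟩
  · rw [h1] at h2 hd
    have : z * 42 ≤ q * 12 := Nat.le_of_mul_le_mul_left (by nlinarith) hz
    nlinarith
  · rw [h1] at h2 hd
    have : z * 96 ≤ q * 24 := Nat.le_of_mul_le_mul_left (by nlinarith) hz
    have : q ≤ 4 := by nlinarith
    omega
  · rw [h1] at h2 hd hdv hcop
    have h5 : z * 270 ≤ q * 60 := Nat.le_of_mul_le_mul_left (by nlinarith) hz
    have h6 : q ≤ 11 := by nlinarith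
    have := hp.out
    obtain rfl | rfl | rfl | rfl | rfl | rfl | rfl | rfl :
      q = 4 ∨ q = 5 ∨ q = 6 ∨ q = 7 ∨ q = 8 ∨ q = 9 ∨ q = 10 ∨ q = 11 := by omega
    all_goals first | omega | (exfalso; norm_num at this; done) | skip
    exact .inr (.inr ⟨rfl, rfl, by omega, h3⟩)

end Cfsg.Lib.Prg
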